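import Mathlib
import Cfsg.Agent.S4381
import Cfsg.Agent.Lib.Helper92.FT12Defs

/-!
# S1421 (B&G Thm 12.12), piece CYC (for helper92)

A normal line lying under an element of maximal order of a normal abelian Sylow `p`-subgroup
lies in a normal cyclic subgroup of maximal order.
-/

set_option autoImplicit false

namespace Cfsg.Agent.Lib.Helper17.FT12

universe u

open Cfsg Cfsg.Agent.Lib.Helper92.FT

variable {Γ : Type u} [Group Γ]

/-- the subgroup of `k`-th powers of a commutative subgroup -/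
def cycPw (P : Subgroup Γ) (hc : ∀ a ∈ P, ∀ b ∈ P, a * b = b * a) (k : ℕ) : Subgroup Γ where
  carrier := {y | ∃ x ∈ P, x ^ k = y}
  mul_mem' := by
    rintro _ _ ⟨x, hx, rfl⟩ ⟨x', hx', rfl⟩
    exact ⟨x * x', P.mul_mem hx hx', Commute.mul_pow (hc x hx x' hx') k⟩
  one_mem' := ⟨1, P.one_mem, one_pow k⟩
  inv_mem' := by
    rintro _ ⟨x, hx, rfl⟩
    exact ⟨x⁻¹, P.inv_mem hx, inv_pow x k⟩

theorem mem_cycPw (P : Subgroup Γ) (hc : ∀ a ∈ P, ∀ b ∈ P, a * b = b * a) (k : ℕ) (y : Γ) :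
    y ∈ cycPw P hc k ↔ ∃ x ∈ P, x ^ k = y := Iff.rfl

/-- the elements of `P` whose `k`-th power lies in `D` -/
def cycRt (P D : Subgroup Γ) (hc : ∀ a ∈ P, ∀ b ∈ P, a * b = b * a) (k : ℕ) : Subgroup Γ where
  carrier := {x | x ∈ P ∧ x ^ k ∈ D}
  mul_mem' := by
    rintro x x' ⟨hx, hxD⟩ ⟨hx', hxD'⟩
    refine ⟨P.mul_mem hx hx', ?_⟩
    rw [Commute.mul_pow (hc x hx x' hx') k]
    exact D.mul_mem hxD hxD'
  one_mem' := ⟨P.one_mem, by rw [one_pow]; exact D.one_mem⟩
  inv_mem' := by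
    rintro x ⟨hx, hxD⟩
    refine ⟨P.inv_mem hx, ?_⟩
    rw [inv_pow]
    exact D.inv_mem hxD

theorem mem_cycRt (P D : Subgroup Γ) (hc : ∀ a ∈ P, ∀ b ∈ P, a * b = b * a) (k : ℕ) (x : Γ) :
    x ∈ cycRt P D hc k ↔ x ∈ P ∧ x ^ k ∈ D := Iff.rfl

theorem cyc_le_normalizer (H T : Subgroup Γ) (h : ∀ g ∈ H, ∀ x ∈ T, g * x * g⁻¹ ∈ T) :
    H ≤ Subgroup.normalizer (T : Set Γ) := by
  intro g hg
  rw [Subgroup.mem_normalizer_iff]
  intro x
  constructor
  · exact h g hg x
  · intro hx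
    have := h g⁻¹ (H.inv_mem hg) _ hx
    simpa [mul_assoc] using this

theorem cyc_conj_mem {H T : Subgroup Γ} (h : H ≤ Subgroup.normalizer (T : Set Γ)) {g x : Γ}
    (hg : g ∈ H) (hx : x ∈ T) : g * x * g⁻¹ ∈ T :=
  (Subgroup.mem_normalizer_iff.mp (h hg) x).mp hx

theorem cycPw_norm (P : Subgroup Γ) (hc : ∀ a ∈ P, ∀ b ∈ P, a * b = b * a) (k : ℕ)
    (H : Subgroup Γ) (hH : H ≤ Subgroup.normalizer (P : Set Γ)) :
    H ≤ Subgroup.normalizer (cycPw P hc k : Set Γ) := by
  apply cyc_le_normalizer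
  rintro g hg _ ⟨x, hx, rfl⟩
  exact ⟨g * x * g⁻¹, cyc_conj_mem hH hg hx, conj_pow⟩

theorem cycRt_norm (P D : Subgroup Γ) (hc : ∀ a ∈ P, ∀ b ∈ P, a * b = b * a) (k : ℕ)
    (H : Subgroup Γ) (hH : H ≤ Subgroup.normalizer (P : Set Γ))
    (hD : H ≤ Subgroup.normalizer (D : Set Γ)) :
    H ≤ Subgroup.normalizer (cycRt P D hc k : Set Γ) := by
  apply cyc_le_normalizer
  rintro g hg x ⟨hx, hxD⟩
  refine ⟨cyc_conj_mem hH hg hx, ?_⟩
  rw [conj_pow]
  exact cyc_conj_mem hD hg hxD

theorem cyc_mem_sup (A B : Subgroup Γ) (hc : ∀ a ∈ A, ∀ b ∈ B, a * b = b * a) {x : Γ}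
    (hx : x ∈ A ⊔ B) : ∃ a ∈ A, ∃ b ∈ B, x = a * b := by
  let T : Subgroup Γ :=
    { carrier := {x | ∃ a ∈ A, ∃ b ∈ B, x = a * b}
      mul_mem' := by
        rintro _ _ ⟨a, ha, b, hb, rfl⟩ ⟨a', ha', b', hb', rfl⟩
        refine ⟨a * a', A.mul_mem ha ha', b * b', B.mul_mem hb hb', ?_⟩
        have h1 := hc a' ha' b hb
        calc a * b * (a' * b') = a * (b * a') * b' := by group
          _ = a * (a' * b) * b' := by rw [h1]
          _ = a * a' * (b * b') := by group
      one_mem' := ⟨1, A.one_mem, 1, B.one_mem, (mul_one 1).symm⟩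
      inv_mem' := by
        rintro _ ⟨a, ha, b, hb, rfl⟩
        refine ⟨a⁻¹, A.inv_mem ha, b⁻¹, B.inv_mem hb, ?_⟩
        rw [mul_inv_rev, hc a⁻¹ (A.inv_mem ha) b⁻¹ (B.inv_mem hb)] }
  have hA : A ≤ T := fun a ha => ⟨a, ha, 1, B.one_mem, (mul_one a).symm⟩
  have hB : B ≤ T := fun b hb => ⟨1, A.one_mem, b, hb, (one_mul b).symm⟩
  exact (sup_le hA hB) hx

theorem cyc_socle (p : ℕ) (hp : p.Prime) (a : ℕ) (ha : 0 < a) (d u : Γ)
    (hd : orderOf d = p ^ a) (hu : u ∈ Subgroup.zpowers d) (hup : u ^ p = 1) :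
    u ∈ Subgroup.zpowers (d ^ (p ^ (a - 1))) := by
  obtain ⟨i, rfl⟩ := Subgroup.mem_zpowers_iff.mp hu
  have h1 : d ^ (i * (p : ℤ)) = 1 := by
    rw [zpow_mul, zpow_natCast]
    exact hup
  have h2 : ((orderOf d : ℕ) : ℤ) ∣ i * (p : ℤ) := orderOf_dvd_iff_zpow_eq_one.mpr h1
  rw [hd] at h2
  have h3 : ((p ^ (a - 1) : ℕ) : ℤ) ∣ i := by
    have h4 : p ^ a = p ^ (a - 1) * p := by
      rw [← pow_succ]
      congr 1
      omega
    rw [h4] at h2
    push_cast at h2
    push_cast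
    exact Int.dvd_of_mul_dvd_mul_right (by exact_mod_cast hp.ne_zero) h2
  obtain ⟨i', hi'⟩ := h3
  rw [Subgroup.mem_zpowers_iff]
  refine ⟨i', ?_⟩
  rw [hi', zpow_mul, zpow_natCast]

theorem cyc_order_root (p : ℕ) (hp : p.Prime) (a : ℕ) (ha : 0 < a) (x : Γ)
    (h1 : orderOf x ∣ p ^ (a + 1)) (h2 : orderOf (x ^ p) = p ^ a) : orderOf x = p ^ (a + 1) := by
  obtain ⟨j, hj, hjo⟩ := (Nat.dvd_prime_pow hp).mp h1
  by_contra hne
  have hja : j ≤ a := by
    rcases Nat.lt_or_ge a j with h | h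
    · exfalso
      apply hne
      rw [hjo]
      congr 1
      omega
    · exact h
  have h3 : x ^ (p ^ a) = 1 := by
    apply orderOf_dvd_iff_pow_eq_one.mp
    rw [hjo]
    exact pow_dvd_pow p hja
  have h4 : (x ^ p) ^ (p ^ (a - 1)) = 1 := by
    rw [← pow_mul, ← pow_succ']
    have : a - 1 + 1 = a := by omega
    rw [this]
    exact h3
  have h5 := orderOf_dvd_of_pow_eq_one h4
  rw [h2] at h5
  have h6 := Nat.le_of_dvd (pow_pos hp.pos _) h5
  have h7 : p ^ (a - 1) < p ^ a := Nat.pow_lt_pow_right hp.one_lt (by omega)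
  omega

theorem cyc_main [Finite Γ] (p : ℕ) [Fact p.Prime] (H : Subgroup Γ)
    (hHp : (Nat.card H).Coprime p) :
    ∀ (a : ℕ) (P X : Subgroup Γ), IsPGroup p P → (∀ x ∈ P, ∀ y ∈ P, x * y = y * x) →
      H ≤ Subgroup.normalizer (P : Set Γ) → X ≤ P → H ≤ Subgroup.normalizer (X : Set Γ) →
      Nat.card X = p → ∀ c ∈ P, orderOf c = p ^ a → (∀ x ∈ P, orderOf x ∣ orderOf c) →
      c ^ (orderOf c / p) ∈ X →
      ∃ C : Subgroup Γ, C ≤ P ∧ H ≤ Subgroup.normalizer (C : Set Γ) ∧ IsCyclic C ∧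
        Nat.card C = orderOf c ∧ X ≤ C := by
  have hp : p.Prime := Fact.out
  intro a
  induction a with
  | zero =>
    intro P X hP hc hHP hXP hHX hXp c hcP hca hmax hcX
    exfalso
    have hX1 : X = ⊥ := by
      rw [eq_bot_iff]
      intro x hx
      have h1 := hmax x (hXP hx)
      rw [hca, pow_zero, Nat.dvd_one, orderOf_eq_one_iff] at h1
      exact Subgroup.mem_bot.mpr h1
    rw [hX1, Subgroup.card_bot] at hXp
    exact hp.one_lt.ne hXp
  | succ a ih =>
    intro P X hP hc hHP hXP hHX hXp c hcP hca hmax hcX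
    rcases Nat.eq_zero_or_pos a with ha0 | hapos
    · subst ha0
      refine ⟨X, hXP, hHX, isCyclic_of_prime_card hXp, ?_, le_refl X⟩
      rw [hca, hXp]
      simp
    · have ha1 : a - 1 + 1 = a := by omega
      -- the subgroup of p-th powers
      have hQP : cycPw P hc p ≤ P := by
        rintro _ ⟨x, hx, rfl⟩
        exact P.pow_mem hx p
      have hQc : ∀ x ∈ cycPw P hc p, ∀ y ∈ cycPw P hc p, x * y = y * x :=
        fun x hx y hy => hc x (hQP hx) y (hQP hy)
      have hQpg : IsPGroup p (cycPw P hc p) := hP.to_le hQP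
      have hHQ : H ≤ Subgroup.normalizer (cycPw P hc p : Set Γ) := cycPw_norm P hc p H hHP
      have hcpQ : c ^ p ∈ cycPw P hc p := ⟨c, hcP, rfl⟩
      have hocp : orderOf (c ^ p) = p ^ a := by
        rw [orderOf_pow_of_dvd hp.ne_zero (by rw [hca]; exact dvd_pow_self p (Nat.succ_ne_zero a)),
          hca, pow_succ]
        exact Nat.mul_div_cancel _ hp.pos
      have hQmax : ∀ y ∈ cycPw P hc p, orderOf y ∣ orderOf (c ^ p) := by
        rintro _ ⟨x, hx, rfl⟩
        rw [hocp]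
        apply orderOf_dvd_of_pow_eq_one
        rw [← pow_mul, ← pow_succ']
        have h1 := hmax x hx
        rw [hca] at h1
        exact orderOf_dvd_iff_pow_eq_one.mp h1
      have hdiv : orderOf c / p = p ^ a := by
        rw [hca, pow_succ]
        exact Nat.mul_div_cancel _ hp.pos
      have hg : c ^ (p ^ a) ∈ X := by
        rw [← hdiv]
        exact hcX
      have hgo : orderOf (c ^ (p ^ a)) = p := by
        rw [orderOf_pow_of_dvd (pow_ne_zero a hp.ne_zero)
          (by rw [hca]; exact pow_dvd_pow p (Nat.le_succ a)), hca, pow_succ]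
        exact Nat.mul_div_cancel_left _ (pow_pos hp.pos a)
      have hXeq : X = Subgroup.zpowers (c ^ (p ^ a)) := by
        symm
        apply Subgroup.eq_of_le_of_card_ge
        · exact Subgroup.zpowers_le.mpr hg
        · rw [Nat.card_zpowers, hgo, hXp]
      have hXQ : X ≤ cycPw P hc p := by
        rw [hXeq, Subgroup.zpowers_le]
        refine ⟨c ^ (p ^ (a - 1)), P.pow_mem hcP _, ?_⟩
        rw [← pow_mul, ← pow_succ, ha1]
      have hcX' : (c ^ p) ^ (orderOf (c ^ p) / p) ∈ X := by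
        rw [hocp]
        have h1 : p ^ a / p = p ^ (a - 1) := by
          conv_lhs => rw [← ha1, pow_succ]
          exact Nat.mul_div_cancel _ hp.pos
        rw [h1, ← pow_mul, ← pow_succ', ha1]
        exact hg
      obtain ⟨D, hDQ, hHD, hDcyc, hDcard, hXD⟩ :=
        ih (cycPw P hc p) X hQpg hQc hHQ hXQ hHX hXp (c ^ p) hcpQ hocp hQmax hcX'
      rw [hocp] at hDcard
      obtain ⟨g, hgen⟩ := hDcyc.exists_generator
      have hdo : orderOf (g : Γ) = p ^ a := by
        rw [Subgroup.orderOf_coe, orderOf_eq_card_of_forall_mem_zpowers hgen, hDcard]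
      have hDz : D = Subgroup.zpowers (g : Γ) := by
        ext x
        constructor
        · intro hx
          obtain ⟨k, hk⟩ := Subgroup.mem_zpowers_iff.mp (hgen ⟨x, hx⟩)
          exact Subgroup.mem_zpowers_iff.mpr ⟨k, by simpa using congrArg Subtype.val hk⟩
        · intro hx
          obtain ⟨k, rfl⟩ := Subgroup.mem_zpowers_iff.mp hx
          exact D.zpow_mem g.2 k
      obtain ⟨x₀, hx₀P, hx₀d⟩ := hDQ g.2
      have hx₀o : orderOf x₀ = p ^ (a + 1) := by
        apply cyc_order_root p hp a hapos x₀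
        · rw [← hca]
          exact hmax x₀ hx₀P
        · rw [hx₀d]
          exact hdo
      -- R and Omega
      have hRP : cycRt P D hc p ≤ P := fun x hx => hx.1
      have hOmR : cycRt P ⊥ hc p ≤ cycRt P D hc p := by
        intro x hx
        refine ⟨hx.1, ?_⟩
        have h1 := hx.2
        rw [Subgroup.mem_bot] at h1
        rw [h1]
        exact D.one_mem
      have hRc : ∀ x ∈ cycRt P D hc p, ∀ y ∈ cycRt P D hc p, x * y = y * x :=
        fun x hx y hy => hc x hx.1 y hy.1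
      have hOmc : ∀ x ∈ cycRt P ⊥ hc p, ∀ y ∈ cycRt P ⊥ hc p, x * y = y * x :=
        fun x hx y hy => hc x hx.1 y hy.1
      have hOmexp : ∀ x ∈ cycRt P ⊥ hc p, x ^ p = 1 := fun x hx => Subgroup.mem_bot.mp hx.2
      have hHR : H ≤ Subgroup.normalizer (cycRt P D hc p : Set Γ) :=
        cycRt_norm P D hc p H hHP hHD
      have hHOm : H ≤ Subgroup.normalizer (cycRt P ⊥ hc p : Set Γ) := by
        apply cycRt_norm P ⊥ hc p H hHP
        apply cyc_le_normalizer
        intro g _ x hx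
        rw [Subgroup.mem_bot] at hx ⊢
        rw [hx]
        simp
      have hXOm : X ≤ cycRt P ⊥ hc p := by
        intro x hx
        refine ⟨hXP hx, ?_⟩
        rw [Subgroup.mem_bot]
        have h1 : (⟨x, hx⟩ : X) ^ Nat.card X = 1 := pow_card_eq_one'
        rw [hXp] at h1
        simpa using congrArg Subtype.val h1
      have hcopOm : (Nat.card H).Coprime (Nat.card (cycRt P ⊥ hc p)) := by
        obtain ⟨m, hm⟩ := (hP.to_le (hOmR.trans hRP)).exists_card_eq
        rw [hm]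
        exact Nat.Coprime.pow_right m hHp
      obtain ⟨Y, hYOm, hHY, hXY, hXYOm⟩ :=
        Cfsg.Agent.S4381.maschke_in (cycRt P ⊥ hc p) H X hOmc p hp hOmexp hHOm hcopOm hXOm hHX
      have hx₀R : x₀ ∈ cycRt P D hc p := ⟨hx₀P, by rw [hx₀d]; exact g.2⟩
      have hC₀R : Subgroup.zpowers x₀ ≤ cycRt P D hc p := Subgroup.zpowers_le.mpr hx₀R
      have hx₀pa : x₀ ^ (p ^ a) = (g : Γ) ^ (p ^ (a - 1)) := by
        rw [← hx₀d, ← pow_mul, ← pow_succ', ha1]
      have hX'o : orderOf (x₀ ^ (p ^ a)) = p := by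
        rw [orderOf_pow_of_dvd (pow_ne_zero a hp.ne_zero)
          (by rw [hx₀o]; exact pow_dvd_pow p (Nat.le_succ a)), hx₀o, pow_succ]
        exact Nat.mul_div_cancel_left _ (pow_pos hp.pos a)
      have hXX' : X = Subgroup.zpowers (x₀ ^ (p ^ a)) := by
        apply Subgroup.eq_of_le_of_card_ge
        · rw [hXeq, Subgroup.zpowers_le, hx₀pa]
          apply cyc_socle p hp a hapos (g : Γ) _ hdo
          · rw [← hDz]
            exact hXD hg
          · have h1 := pow_orderOf_eq_one (c ^ (p ^ a))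
            rwa [hgo] at h1
        · rw [Nat.card_zpowers, hX'o, hXp]
      have hXC₀ : X ≤ Subgroup.zpowers x₀ := by
        rw [hXX', Subgroup.zpowers_le]
        exact Subgroup.pow_mem _ (Subgroup.mem_zpowers x₀) _
      have hinf : Y ⊓ Subgroup.zpowers x₀ = ⊥ := by
        rw [eq_bot_iff]
        rintro z ⟨hzY, hzC⟩
        have hzp : z ^ p = 1 := hOmexp z (hYOm hzY)
        have hzX : z ∈ X := by
          rw [hXX']
          have h1 := cyc_socle p hp (a + 1) (Nat.succ_pos a) x₀ z hx₀o hzC hzp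
          simpa using h1
        have h2 : z ∈ X ⊓ Y := ⟨hzX, hzY⟩
        rw [hXY] at h2
        exact h2
      have hsup : Y ⊔ Subgroup.zpowers x₀ = cycRt P D hc p := by
        apply le_antisymm
        · exact sup_le (hYOm.trans hOmR) hC₀R
        · intro x hx
          have hxD : x ^ p ∈ Subgroup.zpowers (g : Γ) := by
            rw [← hDz]
            exact hx.2
          obtain ⟨j, hj⟩ := Subgroup.mem_zpowers_iff.mp hxD
          have hw : x * x₀ ^ (-j) ∈ cycRt P ⊥ hc p := by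
            refine ⟨P.mul_mem hx.1 (P.zpow_mem hx₀P _), ?_⟩
            rw [Subgroup.mem_bot, Commute.mul_pow (hc x hx.1 _ (P.zpow_mem hx₀P _))]
            have e1 : x ^ p = x₀ ^ ((p : ℤ) * j) := by
              rw [← hj, ← hx₀d, ← zpow_natCast x₀ p, ← zpow_mul]
            have e2 : (x₀ ^ (-j)) ^ p = x₀ ^ (-j * (p : ℤ)) := by
              rw [← zpow_natCast (x₀ ^ (-j)) p, ← zpow_mul]
            rw [e1, e2, ← zpow_add]
            have e3 : (p : ℤ) * j + -j * (p : ℤ) = 0 := by ring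
            rw [e3, zpow_zero]
          have hw2 : x * x₀ ^ (-j) ∈ Y ⊔ Subgroup.zpowers x₀ := by
            have h1 : x * x₀ ^ (-j) ∈ X ⊔ Y := by
              rw [hXYOm]
              exact hw
            exact (sup_le (hXC₀.trans le_sup_right) le_sup_left) h1
          have e4 : x = (x * x₀ ^ (-j)) * x₀ ^ j := by
            rw [mul_assoc, ← zpow_add]
            simp
          rw [e4]
          exact Subgroup.mul_mem _ hw2
            ((le_sup_right : Subgroup.zpowers x₀ ≤ Y ⊔ Subgroup.zpowers x₀)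
              (Subgroup.zpow_mem _ (Subgroup.mem_zpowers x₀) j))
      have hRab : IsMulCommutative (cycRt P D hc p) :=
        ⟨⟨fun x y => Subtype.ext (hRc x.1 x.2 y.1 y.2)⟩⟩
      have hcopR : (Nat.card H).Coprime (Nat.card (cycRt P D hc p)) := by
        obtain ⟨m, hm⟩ := (hP.to_le hRP).exists_card_eq
        rw [hm]
        exact Nat.Coprime.pow_right m hHp
      obtain ⟨C', hC'R, hHC', hYC', hYC'R⟩ :=
        Cfsg.Agent.S0660.result (cycRt P D hc p) H Y hRab hHR hcopR (hYOm.trans hOmR) hHY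
          (Subgroup.zpowers x₀) hC₀R hinf hsup
      have hYR : Y ≤ cycRt P D hc p := hYOm.trans hOmR
      obtain ⟨y', hy', c', hc', hx₀yc⟩ :=
        cyc_mem_sup Y C' (fun a ha b hb => hRc a (hYR ha) b (hC'R hb)) (x := x₀)
          (by rw [hYC'R]; exact hx₀R)
      have hcomm : Commute y' c' := hRc y' (hYR hy') c' (hC'R hc')
      have hc'p : c' ^ p = (g : Γ) := by
        have h1 : x₀ ^ p = y' ^ p * c' ^ p := by
          rw [hx₀yc]
          exact hcomm.mul_pow p
        rw [hOmexp y' (hYOm hy'), one_mul] at h1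
        rw [← h1, hx₀d]
      have hC'z : C' = Subgroup.zpowers c' := by
        apply le_antisymm
        · intro w hw
          have hwR : w ∈ Y ⊔ Subgroup.zpowers x₀ := by
            rw [hsup]
            exact hC'R hw
          obtain ⟨y, hy, t, ht, hwyt⟩ :=
            cyc_mem_sup Y (Subgroup.zpowers x₀) (fun a ha b hb => hRc a (hYR ha) b (hC₀R hb)) hwR
          obtain ⟨j, rfl⟩ := Subgroup.mem_zpowers_iff.mp ht
          have e : w = (y * y' ^ j) * c' ^ j := by
            rw [hwyt, hx₀yc, hcomm.mul_zpow, mul_assoc]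
          have hmem : w * (c' ^ j)⁻¹ ∈ Y ⊓ C' := by
            constructor
            · rw [e, mul_inv_cancel_right]
              exact Y.mul_mem hy (Y.zpow_mem hy' j)
            · exact C'.mul_mem hw (C'.inv_mem (C'.zpow_mem hc' j))
          rw [hYC', Subgroup.mem_bot, mul_inv_eq_one] at hmem
          rw [hmem]
          exact Subgroup.zpow_mem _ (Subgroup.mem_zpowers c') j
        · exact Subgroup.zpowers_le.mpr hc'
      have hc'o : orderOf c' = p ^ (a + 1) := by
        apply cyc_order_root p hp a hapos c'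
        · rw [← hca]
          exact hmax c' (hRP (hC'R hc'))
        · rw [hc'p]
          exact hdo
      refine ⟨C', hC'R.trans hRP, hHC', ?_, ?_, ?_⟩
      · rw [hC'z]
        exact Subgroup.isCyclic_zpowers c'
      · rw [hC'z, Nat.card_zpowers, hc'o, hca]
      · refine hXD.trans ?_
        rw [hDz, Subgroup.zpowers_le, ← hc'p, hC'z]
        exact Subgroup.pow_mem _ (Subgroup.mem_zpowers c') p

theorem cyc : CycStmt.{u} := by
  intro Γ _ _ p _ P X hPn hPp hPc hidx hXP hXn hXp c hcP hmax hcX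
  have hp : p.Prime := Fact.out
  obtain ⟨n, hn⟩ := hPp.exists_card_eq
  have hcop : (Nat.card P).Coprime P.index := by
    rw [hn]
    exact Nat.Coprime.pow_left n ((Nat.Prime.coprime_iff_not_dvd hp).mpr hidx)
  obtain ⟨H, hH⟩ := Subgroup.exists_right_complement'_of_coprime hcop
  have hHcard : Nat.card H = P.index := hH.symm.index_eq_card.symm
  have hHp : (Nat.card H).Coprime p := by
    rw [hHcard]
    exact ((Nat.Prime.coprime_iff_not_dvd hp).mpr hidx).symm
  obtain ⟨a, ha⟩ : ∃ a, orderOf c = p ^ a := by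
    obtain ⟨k, hk⟩ := hPp ⟨c, hcP⟩
    have h1 : c ^ (p ^ k) = 1 := by simpa using congrArg Subtype.val hk
    obtain ⟨j, -, hj⟩ := (Nat.dvd_prime_pow hp).mp (orderOf_dvd_of_pow_eq_one h1)
    exact ⟨j, hj⟩
  have hHP : H ≤ Subgroup.normalizer (P : Set Γ) := by
    rw [Subgroup.normalizer_eq_top_iff.mpr hPn]
    exact le_top
  have hHX : H ≤ Subgroup.normalizer (X : Set Γ) := by
    rw [Subgroup.normalizer_eq_top_iff.mpr hXn]
    exact le_top
  obtain ⟨C, hCP, hHC, hCcyc, hCcard, hXC⟩ :=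
    cyc_main p H hHp a P X hPp hPc hHP hXP hHX hXp c hcP ha hmax hcX
  refine ⟨C, hCP, ?_, hCcyc, hCcard, hXC⟩
  rw [← Subgroup.normalizer_eq_top_iff, eq_top_iff, ← hH.sup_eq_top]
  refine sup_le ?_ hHC
  apply cyc_le_normalizer
  intro g hg x hx
  have h1 : g * x * g⁻¹ = x := by
    rw [hPc g hg x (hCP hx), mul_inv_cancel_right]
  rw [h1]
  exact hx

end Cfsg.Agent.Lib.Helper17.FT12
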