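import Mathlib
import Cfsg.Agent.Lib.Helper84.GADefs

/-!
# S4840 project GA, piece PC (for helper84)

A normal subgroup `C` without elements of order `p` and with abelian quotient: the group has a
normal `p`-complement and commutative Sylow `p`-subgroups.
-/

set_option autoImplicit false

namespace Cfsg.Agent.Lib.Helper17.GA

universe u

open Cfsg.Agent.Lib.Helper84.GA

theorem pc_pow_one {Γ : Type u} [Group Γ] (p : ℕ) (C : Subgroup Γ)
    (h1 : ∀ g ∈ C, g ^ p = 1 → g = 1) :
    ∀ (k : ℕ) (g : Γ), g ∈ C → g ^ (p ^ k) = 1 → g = 1 := by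
  intro k
  induction k with
  | zero =>
    intro g _ hg
    simpa using hg
  | succ k ih =>
    intro g hgC hg
    apply ih g hgC
    apply h1 _ (C.pow_mem hgC _)
    rw [← pow_mul, ← pow_succ]
    exact hg

theorem pc : PCStmt.{u} := by
  intro Γ _ _ p _ C hC h1 h2
  have hp : p.Prime := Fact.out
  constructor
  · obtain ⟨b, m, hpm, hcard⟩ :=
      Nat.exists_eq_pow_mul_and_not_dvd (Nat.card_pos (α := Γ)).ne' p hp.ne_one
    have hmem : ∀ g : Γ, g ∈ C ↔ QuotientGroup.mk' C g = 1 :=
      fun g => (QuotientGroup.eq_one_iff g).symm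
    have hcomm : ∀ x y : Γ, Commute (QuotientGroup.mk' C x) (QuotientGroup.mk' C y) := by
      intro x y
      have h3 := h2 x y
      rw [hmem] at h3
      rw [map_mul, map_mul, map_mul, map_inv, map_inv] at h3
      have h4 := mul_inv_eq_one.mp h3
      exact mul_inv_eq_iff_eq_mul.mp h4
    let K : Subgroup Γ :=
      { carrier := {g | g ^ m ∈ C}
        mul_mem' := by
          intro x y hx hy
          have hx' : x ^ m ∈ C := hx
          have hy' : y ^ m ∈ C := hy
          show (x * y) ^ m ∈ C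
          rw [hmem] at hx' hy' ⊢
          rw [map_pow, map_mul, (hcomm x y).mul_pow, ← map_pow, ← map_pow, hx', hy', one_mul]
        one_mem' := by
          show (1 : Γ) ^ m ∈ C
          rw [one_pow]
          exact C.one_mem
        inv_mem' := by
          intro x hx
          have hx' : x ^ m ∈ C := hx
          show (x⁻¹) ^ m ∈ C
          rw [inv_pow]
          exact C.inv_mem hx' }
    have hKmem : ∀ g : Γ, g ∈ K ↔ g ^ m ∈ C := fun g => Iff.rfl
    have hKn : K.Normal := ⟨by
      intro x hx g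
      rw [hKmem] at hx ⊢
      rw [conj_pow]
      exact hC.conj_mem _ hx g⟩
    have hpK : ¬ p ∣ Nat.card K := by
      intro hdvd
      obtain ⟨g, hg⟩ := exists_prime_orderOf_dvd_card' p hdvd
      have hgK : (g : Γ) ^ m ∈ C := (hKmem _).mp g.2
      have hgo : orderOf (g : Γ) = p := by
        rw [Subgroup.orderOf_coe]
        exact hg
      have h5 : ((g : Γ) ^ m) ^ p = 1 := by
        have h50 : (g : Γ) ^ p = 1 := by
          have := pow_orderOf_eq_one (g : Γ)
          rwa [hgo] at this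
        rw [← pow_mul, mul_comm, pow_mul, h50, one_pow]
      have h6 := h1 _ hgK h5
      have h7 : orderOf (g : Γ) ∣ m := orderOf_dvd_of_pow_eq_one h6
      rw [hgo] at h7
      exact hpm h7
    have hKidx : ∃ a, K.index = p ^ a := by
      have hPG : IsPGroup p (Γ ⧸ K) := by
        intro y
        obtain ⟨g, rfl⟩ := QuotientGroup.mk_surjective y
        refine ⟨b, ?_⟩
        rw [← QuotientGroup.mk_pow, QuotientGroup.eq_one_iff, hKmem, ← pow_mul, ← hcard,
          pow_card_eq_one']
        exact C.one_mem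
      obtain ⟨a, ha⟩ := IsPGroup.iff_card.mp hPG
      exact ⟨a, by rw [Subgroup.index_eq_card, ha]⟩
    obtain ⟨a, ha⟩ := hKidx
    have hΓ : Nat.card K * p ^ a = Nat.card Γ := by
      rw [← ha]
      exact K.card_mul_index
    have hP : Nat.card ((default : Sylow p Γ) : Subgroup Γ) = p ^ a := by
      rw [Sylow.card_eq_multiplicity, ← hΓ,
        Nat.factorization_mul (Nat.card_pos (α := K)).ne' (pow_ne_zero a hp.ne_zero)]
      simp [Nat.factorization_eq_zero_of_not_dvd hpK, hp.factorization_pow]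
    refine ⟨default, K, hKn, ?_⟩
    apply Subgroup.isComplement'_of_coprime
    · rw [hP]
      exact hΓ
    · rw [hP]
      exact Nat.Coprime.pow_right a ((Nat.Prime.coprime_iff_not_dvd hp).mpr hpK).symm
  · intro Q
    refine ⟨⟨fun x y => ?_⟩⟩
    apply Subtype.ext
    have hc : (x : Γ) * y * (x : Γ)⁻¹ * (y : Γ)⁻¹ ∈ C := h2 _ _
    have hq : (x : Γ) * y * (x : Γ)⁻¹ * (y : Γ)⁻¹ ∈ (Q : Subgroup Γ) :=
      (Q : Subgroup Γ).mul_mem ((Q : Subgroup Γ).mul_mem ((Q : Subgroup Γ).mul_mem x.2 y.2)
        ((Q : Subgroup Γ).inv_mem x.2)) ((Q : Subgroup Γ).inv_mem y.2)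
    obtain ⟨k, hk⟩ := Q.isPGroup' ⟨_, hq⟩
    have hk' : ((x : Γ) * y * (x : Γ)⁻¹ * (y : Γ)⁻¹) ^ (p ^ k) = 1 := by
      simpa using congrArg Subtype.val hk
    have h8 := pc_pow_one p C h1 k _ hc hk'
    have h9 := mul_inv_eq_one.mp h8
    exact mul_inv_eq_iff_eq_mul.mp h9

end Cfsg.Agent.Lib.Helper17.GA
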