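import Mathlib
import Cfsg.Agent.Lib.Helper18.LSDefs

/-!
# S2333 piece LS-NANISO3 (for helper18)

Counting pairs for an anisotropic binary form.
-/

set_option autoImplicit false

namespace Cfsg.Agent.Lib.Helper18.LS

open Matrix

universe u

variable {F : Type u} [Field F] {n : ℕ}

-- piece NANISO3
theorem naniso_three [Fintype F] (α β : F)
    (h : ∀ p : F × F, f2 α β p = 0 → p = 0)
    (h1 : ∀ α' : F, Nat.card {p : F × F | f2 α β p = α'} ≤ Fintype.card F + 1)
    (h2 : ∀ (β' γ : F) (p : F × F), p ≠ 0 →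
      Nat.card {p' : F × F | f2 α β p' = β' ∧ p.1 * p'.2 + p'.1 * p.2 = γ} ≤ 2)
    (α' β' γ : F) :
    Nat.card {P : (F × F) × (F × F) | f2 α β P.1 = α' ∧ f2 α β P.2 = β' ∧
      P.1.1 * P.2.2 + P.2.1 * P.1.2 = γ} ≤ 2 * (Fintype.card F + 1) := by
  classical
  by_cases hα : α' = 0
  · subst hα
    have hinj : Function.Injective
        (fun P : {P : (F × F) × (F × F) | f2 α β P.1 = 0 ∧ f2 α β P.2 = β' ∧
            P.1.1 * P.2.2 + P.2.1 * P.1.2 = γ} =>
          (⟨P.1.2, P.2.2.1⟩ : {p' : F × F | f2 α β p' = β'})) := by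
      rintro ⟨P, hP⟩ ⟨P', hP'⟩ hPP'
      have e1 : P.1 = 0 := h _ hP.1
      have e2 : P'.1 = 0 := h _ hP'.1
      have e3 : P.2 = P'.2 := congrArg Subtype.val hPP'
      exact Subtype.ext (Prod.ext (e1.trans e2.symm) e3)
    calc Nat.card {P : (F × F) × (F × F) | f2 α β P.1 = 0 ∧ f2 α β P.2 = β' ∧
            P.1.1 * P.2.2 + P.2.1 * P.1.2 = γ}
        ≤ Nat.card {p' : F × F | f2 α β p' = β'} := Nat.card_le_card_of_injective _ hinj
      _ ≤ Fintype.card F + 1 := h1 β'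
      _ ≤ 2 * (Fintype.card F + 1) := by omega
  · let A : Set (F × F) := {p : F × F | f2 α β p = α'}
    let B : A → Type u := fun p =>
      {p' : F × F | f2 α β p' = β' ∧ p.1.1 * p'.2 + p'.1 * p.1.2 = γ}
    have hne : ∀ p : A, p.1 ≠ 0 := by
      rintro ⟨p, hp⟩ h0
      apply hα
      have h3 : f2 α β p = α' := hp
      rw [← h3, show p = 0 from h0]
      simp [f2]
    let f : {P : (F × F) × (F × F) | f2 α β P.1 = α' ∧ f2 α β P.2 = β' ∧
        P.1.1 * P.2.2 + P.2.1 * P.1.2 = γ} → Sigma B :=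
      fun P => ⟨⟨P.1.1, P.2.1⟩, ⟨P.1.2, ⟨P.2.2.1, P.2.2.2⟩⟩⟩
    have hinj : Function.Injective f := by
      intro P P' hPP'
      have h3 := congrArg (fun s : Sigma B => ((s.1.1, s.2.1) : (F × F) × (F × F))) hPP'
      exact Subtype.ext (by simpa [f] using h3)
    have : Fintype A := Fintype.ofFinite A
    calc Nat.card {P : (F × F) × (F × F) | f2 α β P.1 = α' ∧ f2 α β P.2 = β' ∧
            P.1.1 * P.2.2 + P.2.1 * P.1.2 = γ}
        ≤ Nat.card (Sigma B) := Nat.card_le_card_of_injective f hinj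
      _ = ∑ p : A, Nat.card (B p) := Nat.card_sigma
      _ ≤ ∑ _p : A, 2 := Finset.sum_le_sum (fun p _ => h2 β' γ p.1 (hne p))
      _ = Fintype.card A * 2 := by simp
      _ ≤ (Fintype.card F + 1) * 2 :=
          Nat.mul_le_mul_right 2 (by rw [← Nat.card_eq_fintype_card]; exact h1 α')
      _ = 2 * (Fintype.card F + 1) := by ring

end Cfsg.Agent.Lib.Helper18.LS
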