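import Mathlib
import Cfsg.Agent.Lib.Helper93.Sl3Defs

/-!
# S2287 piece TRANSFER (helper17, for helper93): the Steinberg relation at all `(a, b)`
-/

set_option autoImplicit false

namespace Cfsg.Agent.Lib.Helper93.Sl3

section h17transfer

variable {F : Type*} [Field F] {P : Type*} [Group P] {ζ : F} {x : F → P} {h t c : P}

/-- the Steinberg relation at `(a, b)` -/
def h17_stR (x : F → P) (t c : P) (a b : F) : Prop :=
  x a * (c * x b * c⁻¹) * (x a)⁻¹ * (c * x b * c⁻¹)⁻¹ = t * c * x (a * b) * c⁻¹ * t⁻¹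

theorem h17_conj_iff (w A B C A' B' C' : P) (hA : w * A * w⁻¹ = A')
    (hB : w * B * w⁻¹ = B') (hC : w * C * w⁻¹ = C') :
    A * B * A⁻¹ * B⁻¹ = C ↔ A' * B' * A'⁻¹ * B'⁻¹ = C' := by
  subst hA hB hC
  constructor
  · intro e; rw [← e]; group
  · intro e
    have h1 : w * (A * B * A⁻¹ * B⁻¹) * w⁻¹ = w * C * w⁻¹ := by rw [← e]; group
    exact mul_left_cancel (mul_right_cancel h1)

theorem h17_moveH (M : Moves ζ x h t c) (hζ0 : ζ ≠ 0) (a b : F) :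
    h17_stR x t c a b ↔ h17_stR x t c (ζ⁻¹ ^ 2 * a) (ζ * b) := by
  have h1 := h17_conj_iff h (x a) (c * x b * c⁻¹) (t * c * x (a * b) * c⁻¹ * t⁻¹) _ _ _
    (M.h12 a) (M.h23 b) (M.h13 (a * b))
  have e : ζ⁻¹ * (a * b) = ζ⁻¹ ^ 2 * a * (ζ * b) := by field_simp
  rw [e] at h1
  exact h1

theorem h17_moveK (M : Moves ζ x h t c) (hζ0 : ζ ≠ 0) (a b : F) :
    h17_stR x t c a b ↔ h17_stR x t c (ζ * a) (ζ⁻¹ ^ 2 * b) := by
  have h1 := h17_conj_iff (c * h * c⁻¹) (x a) (c * x b * c⁻¹)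
    (t * c * x (a * b) * c⁻¹ * t⁻¹) _ _ _ (M.k12 a) (M.k23 b) (M.k13 (a * b))
  have e : ζ⁻¹ * (a * b) = ζ * a * (ζ⁻¹ ^ 2 * b) := by field_simp
  rw [e] at h1
  exact h1

theorem h17_move1 (M : Moves ζ x h t c) (hζ0 : ζ ≠ 0) (a b : F) :
    h17_stR x t c a b ↔ h17_stR x t c (ζ⁻¹ * a) (ζ⁻¹ * b) := by
  rw [h17_moveH M hζ0 a b, h17_moveK M hζ0 (ζ⁻¹ ^ 2 * a) (ζ * b)]
  have e1 : ζ * (ζ⁻¹ ^ 2 * a) = ζ⁻¹ * a := by field_simp
  have e2 : ζ⁻¹ ^ 2 * (ζ * b) = ζ⁻¹ * b := by field_simp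
  rw [e1, e2]

theorem h17_move3 (M : Moves ζ x h t c) (hζ0 : ζ ≠ 0) (a b : F) :
    h17_stR x t c a b ↔ h17_stR x t c (ζ⁻¹ ^ 3 * a) b := by
  rw [h17_moveH M hζ0 a b, h17_moveH M hζ0 (ζ⁻¹ ^ 2 * a) (ζ * b),
    h17_moveK M hζ0 (ζ⁻¹ ^ 2 * (ζ⁻¹ ^ 2 * a)) (ζ * (ζ * b))]
  have e1 : ζ * (ζ⁻¹ ^ 2 * (ζ⁻¹ ^ 2 * a)) = ζ⁻¹ ^ 3 * a := by field_simp
  have e2 : ζ⁻¹ ^ 2 * (ζ * (ζ * b)) = b := by field_simp
  rw [e1, e2]

/-- TRANSFER -/
theorem steinberg_all (D : RootData ζ x h t c) (M : Moves ζ x h t c) (hζ0 : ζ ≠ 0)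
    (hζ : ∀ a : F, a ≠ 0 → ∃ j : ℕ, a = ζ ^ j) :
    ∀ a b : F, x a * (c * x b * c⁻¹) * (x a)⁻¹ * (c * x b * c⁻¹)⁻¹ =
      t * c * x (a * b) * c⁻¹ * t⁻¹ := by
  have hx0 : x 0 = 1 := by
    have h0 := D.add 0 0
    rw [add_zero] at h0
    exact left_eq_mul.mp h0
  have hzl : ∀ b, h17_stR x t c 0 b := by
    intro b; unfold h17_stR; rw [zero_mul, hx0]; group
  have hzr : ∀ a, h17_stR x t c a 0 := by
    intro a; unfold h17_stR; rw [mul_zero, hx0]; group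
  have h00 : h17_stR x t c 1 1 := by unfold h17_stR; rw [mul_one]; exact D.st00
  have h10 : h17_stR x t c ζ 1 := by unfold h17_stR; rw [mul_one]; exact D.st10
  have h01 : h17_stR x t c 1 ζ := by unfold h17_stR; rw [one_mul]; exact D.st01
  have h20 : h17_stR x t c (ζ ^ 2) 1 := by
    rw [h17_move1 M hζ0]
    have h1 := (h17_moveK M hζ0 1 ζ).1 h01
    have e1 : ζ⁻¹ * ζ ^ 2 = ζ * 1 := by field_simp
    have e2 : ζ⁻¹ * 1 = ζ⁻¹ ^ 2 * ζ := by field_simp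
    rw [e1, e2]; exact h1
  have hA : ∀ i : ℕ, h17_stR x t c (ζ ^ i) 1 ∧ h17_stR x t c (ζ ^ (i + 1)) 1 ∧
      h17_stR x t c (ζ ^ (i + 2)) 1 := by
    intro i
    induction i with
    | zero => exact ⟨by simpa using h00, by simpa using h10, h20⟩
    | succ i ih =>
      refine ⟨ih.2.1, ih.2.2, ?_⟩
      rw [h17_move3 M hζ0]
      have e : ζ⁻¹ ^ 3 * ζ ^ (i + 1 + 2) = ζ ^ i := by
        rw [show i + 1 + 2 = i + 3 by ring, pow_add]; field_simp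
      rw [e]; exact ih.1
  have hB : ∀ j : ℕ, ∀ a, h17_stR x t c a (ζ ^ j) := by
    intro j
    induction j with
    | zero =>
      intro a
      rw [pow_zero]
      by_cases ha : a = 0
      · rw [ha]; exact hzl 1
      · obtain ⟨i, rfl⟩ := hζ a ha
        exact (hA i).1
    | succ j ih =>
      intro a
      rw [h17_move1 M hζ0]
      have e : ζ⁻¹ * ζ ^ (j + 1) = ζ ^ j := by rw [pow_succ]; field_simp
      rw [e]; exact ih _
  intro a b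
  by_cases hb : b = 0
  · rw [hb]; exact hzr a
  · obtain ⟨j, rfl⟩ := hζ b hb
    exact hB j a

end h17transfer

end Cfsg.Agent.Lib.Helper93.Sl3
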