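import Mathlib
import Cfsg.Agent.Lib.Helper93.Sp4Defs

/-!
# S2293 piece STC1 (helper17, for helper93): the Steinberg commutator relation
`[x_α(a), x_β(b)] = x_{α+β}(-ab) x_{2α+β}(a² b)` at all `(a, b)`
-/

set_option autoImplicit false

namespace Cfsg.Agent.Lib.Helper93.Sp4

open Polynomial Matrix

/-- every element of a finite field is a sum of two squares -/
theorem h17s_sum_two_sq {F : Type*} [Field F] [Fintype F] (x : F) :
    ∃ a b : F, a ^ 2 + b ^ 2 = x := by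
  classical
  by_cases h2 : ringChar F = 2
  · obtain ⟨a, ha⟩ := FiniteField.isSquare_of_char_two h2 x
    exact ⟨a, 0, by rw [ha]; ring⟩
  · have hodd : Fintype.card F % 2 = 1 := FiniteField.odd_card_of_char_ne_two h2
    obtain ⟨a, b, hab⟩ : ∃ a b, (X ^ 2 : F[X]).eval a + (X ^ 2 - C x : F[X]).eval b = 0 :=
      FiniteField.exists_root_sum_quadratic (degree_X_pow 2)
        (degree_X_pow_sub_C (by norm_num) _) hodd
    refine ⟨a, b, ?_⟩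
    rw [← sub_eq_zero]
    simpa only [eval_C, eval_X, eval_pow, eval_sub, ← add_sub_assoc] using hab

section h17stc1

variable {F : Type*} [Field F] {P : Type*} [Group P] {ζ : F} {n : ℕ} {xa xb : F → P}
  {ha ta hb tb : P}

/-- the Steinberg commutator relation at `(a, b)` -/
def h17s_stQ (xa xb : F → P) (ta tb : P) (a b : F) : Prop :=
  xa a * xb b * (xa a)⁻¹ * (xb b)⁻¹ =
    tb * xa (-(a * b)) * tb⁻¹ * (ta * xb (a ^ 2 * b) * ta⁻¹)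

theorem h17s_conj_iff (w A B C A' B' C' : P) (hA : w * A * w⁻¹ = A')
    (hB : w * B * w⁻¹ = B') (hC : w * C * w⁻¹ = C') :
    A * B * A⁻¹ * B⁻¹ = C ↔ A' * B' * A'⁻¹ * B'⁻¹ = C' := by
  subst hA hB hC
  constructor
  · intro e; rw [← e]; group
  · intro e
    have h1 : w * (A * B * A⁻¹ * B⁻¹) * w⁻¹ = w * C * w⁻¹ := by rw [← e]; group
    exact mul_left_cancel (mul_right_cancel h1)

theorem h17s_conj_mul (w C1 C2 C1' C2' : P) (h1 : w * C1 * w⁻¹ = C1')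
    (h2 : w * C2 * w⁻¹ = C2') : w * (C1 * C2) * w⁻¹ = C1' * C2' := by
  subst h1 h2; group

/-- conjugation by `ha` -/
theorem h17s_moveA (M : C2Moves ζ xa xb ha ta hb tb) (hζ0 : ζ ≠ 0) (a b : F) :
    h17s_stQ xa xb ta tb a b ↔ h17s_stQ xa xb ta tb (ζ⁻¹ ^ 2 * a) (ζ ^ 2 * b) := by
  have h1 := h17s_conj_iff ha (xa a) (xb b)
    (tb * xa (-(a * b)) * tb⁻¹ * (ta * xb (a ^ 2 * b) * ta⁻¹)) _ _ _
    (M.a_ha a) (M.b_ha b)
    (h17s_conj_mul ha _ _ _ _ (M.ab_ha (-(a * b))) (M.aab_ha (a ^ 2 * b)))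
  have e1 : -(ζ⁻¹ ^ 2 * a * (ζ ^ 2 * b)) = -(a * b) := by field_simp
  have e2 : (ζ⁻¹ ^ 2 * a) ^ 2 * (ζ ^ 2 * b) = ζ⁻¹ ^ 2 * (a ^ 2 * b) := by field_simp
  unfold h17s_stQ
  rw [e1, e2]
  exact h1

/-- conjugation by `hb` -/
theorem h17s_moveB (M : C2Moves ζ xa xb ha ta hb tb) (hζ0 : ζ ≠ 0) (a b : F) :
    h17s_stQ xa xb ta tb a b ↔ h17s_stQ xa xb ta tb (ζ * a) (ζ⁻¹ ^ 2 * b) := by
  have h1 := h17s_conj_iff hb (xa a) (xb b)
    (tb * xa (-(a * b)) * tb⁻¹ * (ta * xb (a ^ 2 * b) * ta⁻¹)) _ _ _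
    (M.a_hb a) (M.b_hb b)
    (h17s_conj_mul hb _ _ _ _ (M.ab_hb (-(a * b))) (M.aab_hb (a ^ 2 * b)))
  have e1 : -(ζ * a * (ζ⁻¹ ^ 2 * b)) = ζ⁻¹ * -(a * b) := by field_simp
  have e2 : (ζ * a) ^ 2 * (ζ⁻¹ ^ 2 * b) = a ^ 2 * b := by field_simp
  unfold h17s_stQ
  rw [e1, e2]
  exact h1

/-- `(a, b) ↦ (ζ a, b)` -/
theorem h17s_move1 (M : C2Moves ζ xa xb ha ta hb tb) (hζ0 : ζ ≠ 0) (a b : F) :
    h17s_stQ xa xb ta tb (ζ * a) b ↔ h17s_stQ xa xb ta tb a b := by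
  rw [h17s_moveA M hζ0 (ζ * a) b, h17s_moveB M hζ0 (ζ⁻¹ ^ 2 * (ζ * a)) (ζ ^ 2 * b)]
  have e1 : ζ * (ζ⁻¹ ^ 2 * (ζ * a)) = a := by field_simp
  have e2 : ζ⁻¹ ^ 2 * (ζ ^ 2 * b) = b := by field_simp
  rw [e1, e2]

/-- `(a, b) ↦ (a, ζ² b)` -/
theorem h17s_move2 (M : C2Moves ζ xa xb ha ta hb tb) (hζ0 : ζ ≠ 0) (a b : F) :
    h17s_stQ xa xb ta tb a (ζ ^ 2 * b) ↔ h17s_stQ xa xb ta tb a b := by
  rw [h17s_moveA M hζ0 a b, ← h17s_move1 M hζ0 (ζ⁻¹ ^ 2 * a) (ζ ^ 2 * b),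
    ← h17s_move1 M hζ0 (ζ * (ζ⁻¹ ^ 2 * a)) (ζ ^ 2 * b)]
  have e : ζ * (ζ * (ζ⁻¹ ^ 2 * a)) = a := by field_simp
  rw [e]

/-- STC1 -/
theorem stein_c1 [Fintype F] (D : C2Root ζ n xa xb ha ta hb tb)
    (M : C2Moves ζ xa xb ha ta hb tb) (hζ0 : ζ ≠ 0)
    (hζ : ∀ a : F, a ≠ 0 → ∃ j : ℕ, a = ζ ^ j)
    (hB : ∀ b d : F, Commute (xb b) (ta * xb d * ta⁻¹))
    (hBAB : ∀ b a : F, Commute (xb b) (tb * xa a * tb⁻¹))
    (hABAAB : ∀ a d : F, Commute (tb * xa a * tb⁻¹) (ta * xb d * ta⁻¹)) :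
    ∀ a b : F, xa a * xb b * (xa a)⁻¹ * (xb b)⁻¹ =
      tb * xa (-(a * b)) * tb⁻¹ * (ta * xb (a ^ 2 * b) * ta⁻¹) := by
  have hxa0 : xa 0 = 1 := by
    have h0 := D.adda 0 0
    rw [add_zero] at h0
    exact left_eq_mul.mp h0
  have hxb0 : xb 0 = 1 := by
    have h0 := D.addb 0 0
    rw [add_zero] at h0
    exact left_eq_mul.mp h0
  have hzl : ∀ b, h17s_stQ xa xb ta tb 0 b := by
    intro b; unfold h17s_stQ
    have e1 : -(0 * b) = (0 : F) := by ring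
    have e2 : (0 : F) ^ 2 * b = 0 := by ring
    rw [e1, e2, hxa0, hxb0]; group
  have hzr : ∀ a, h17s_stQ xa xb ta tb a 0 := by
    intro a; unfold h17s_stQ
    have e1 : -(a * 0) = (0 : F) := by ring
    have e2 : a ^ 2 * 0 = (0 : F) := by ring
    rw [e1, e2, hxa0, hxb0]; group
  have h11 : h17s_stQ xa xb ta tb 1 1 := by
    unfold h17s_stQ
    have e1 : -((1 : F) * 1) = -1 := by ring
    have e2 : (1 : F) ^ 2 * 1 = 1 := by ring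
    rw [e1, e2]; exact D.s1
  have hpa : ∀ (j : ℕ) (a b : F),
      h17s_stQ xa xb ta tb (ζ ^ j * a) b ↔ h17s_stQ xa xb ta tb a b := by
    intro j
    induction j with
    | zero => intro a b; rw [pow_zero, one_mul]
    | succ j ih => intro a b; rw [pow_succ, mul_assoc, ih, h17s_move1 M hζ0]
  have hpb : ∀ (j : ℕ) (a b : F),
      h17s_stQ xa xb ta tb a ((ζ ^ j) ^ 2 * b) ↔ h17s_stQ xa xb ta tb a b := by
    intro j
    induction j with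
    | zero => intro a b; rw [pow_zero, one_pow, one_mul]
    | succ j ih =>
      intro a b
      have e : (ζ ^ (j + 1)) ^ 2 * b = (ζ ^ j) ^ 2 * (ζ ^ 2 * b) := by ring
      rw [e, ih, h17s_move2 M hζ0]
  have hsq : ∀ a c : F, h17s_stQ xa xb ta tb a (c ^ 2) := by
    intro a c
    by_cases ha0 : a = 0
    · subst ha0; exact hzl _
    by_cases hc0 : c = 0
    · subst hc0
      have e : (0 : F) ^ 2 = 0 := by ring
      rw [e]; exact hzr _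
    obtain ⟨i, rfl⟩ := hζ a ha0
    obtain ⟨j, rfl⟩ := hζ c hc0
    have h := (hpb j (ζ ^ i * 1) 1).2 ((hpa i 1 1).2 h11)
    rw [mul_one, mul_one] at h
    exact h
  have hadd : ∀ a b1 b2 : F, h17s_stQ xa xb ta tb a b1 → h17s_stQ xa xb ta tb a b2 →
      h17s_stQ xa xb ta tb a (b1 + b2) := by
    intro a b1 b2 h1 h2
    unfold h17s_stQ at h1 h2 ⊢
    have e1 : -(a * (b1 + b2)) = -(a * b1) + -(a * b2) := by ring
    have e2 : a ^ 2 * (b1 + b2) = a ^ 2 * b1 + a ^ 2 * b2 := by ring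
    rw [e1, e2, D.adda, D.addb, D.addb]
    have k1 : xa a * (xb b1 * xb b2) * (xa a)⁻¹ * (xb b1 * xb b2)⁻¹ =
        (xa a * xb b1 * (xa a)⁻¹ * (xb b1)⁻¹) *
          (xb b1 * (xa a * xb b2 * (xa a)⁻¹ * (xb b2)⁻¹) * (xb b1)⁻¹) := by group
    rw [k1, h1, h2]
    have c1 := hBAB b1 (-(a * b2))
    have c2 := hB b1 (a ^ 2 * b2)
    have c3 := hABAAB (-(a * b2)) (a ^ 2 * b1)
    have k2 : xb b1 * (tb * xa (-(a * b2)) * tb⁻¹ * (ta * xb (a ^ 2 * b2) * ta⁻¹)) * (xb b1)⁻¹ =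
        tb * xa (-(a * b2)) * tb⁻¹ * (ta * xb (a ^ 2 * b2) * ta⁻¹) := by
      rw [(c1.mul_right c2).eq]; group
    rw [k2]
    have k3 : tb * (xa (-(a * b1)) * xa (-(a * b2))) * tb⁻¹ *
        (ta * (xb (a ^ 2 * b1) * xb (a ^ 2 * b2)) * ta⁻¹) =
        tb * xa (-(a * b1)) * tb⁻¹ * ((tb * xa (-(a * b2)) * tb⁻¹) * (ta * xb (a ^ 2 * b1) * ta⁻¹)) *
          (ta * xb (a ^ 2 * b2) * ta⁻¹) := by group
    rw [k3, c3.eq]; group
  intro a b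
  obtain ⟨c1, c2, rfl⟩ := h17s_sum_two_sq b
  exact hadd a _ _ (hsq a c1) (hsq a c2)

end h17stc1

end Cfsg.Agent.Lib.Helper93.Sp4
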